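import Cfsg.Agent.R2.T1.Mu2.Def
import Cfsg.Agent.R2.PX.Tr1

/-!
# The quadratic moment map, every characteristic: normal form of singular vectors (helper24)

* `sing_eq` : a singular vector with a non-zero coordinate at `m` and zero coordinates at the neighbours of `m` is `x m • bs m`;
* `nf` : a singular vector `x` with `x m ≠ 0` is `x m • V F g (bs F m)`, `g` fixing the weight vectors `n` with
  `p2 n m = -1`, `x (op n) = 0`;
* `orth_bs` : vectors orthogonal to `bs m` for the polar form.
-/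

set_option autoImplicit false
set_option maxRecDepth 100000

namespace Cfsg.Agent.R2.T1.Mu2

open Cfsg Cfsg.Lie Matrix
open Cfsg.Agent.R2.T1 Cfsg.Agent.R2.PX
open Cfsg.Agent.ChevalleyStructure.Elts Cfsg.Agent.ChevalleyStructure.RootVec
  Cfsg.Agent.ChevalleyStructure.RootVecTab
open Cfsg.Agent.H943.E7V.Block (D1 rho)

universe u
variable {F : Type u} [Field F]

theorem bs_same (a : D1) : bs F a a = 1 := by rw [bs, Pi.single_eq_same]
theorem bs_ne {a b : D1} (h : b ≠ a) : bs F a b = 0 := by rw [bs, Pi.single_eq_of_ne h]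

/-- the half-form vanishes if the support is totally isotropic -/
theorem hq_zero {N : Matrix D1 D1 F} {y : D1 → F} (h : ∀ a b, y a ≠ 0 → y b ≠ 0 → a ≠ b → (JM F * N) a b = 0) : hq N y = 0 := by
  unfold hq
  refine Finset.sum_eq_zero fun a _ => Finset.sum_eq_zero fun b _ => ?_
  split_ifs with hab
  · by_cases ha : y a = 0
    · rw [ha]; ring
    by_cases hb : y b = 0
    · rw [hb]; ring
    rw [h a b ha hb (ne_of_lt hab)]; ring
  · rfl

theorem JM_mul_apply (N : Matrix D1 D1 F) (a b : D1) : (JM F * N) a b = ((ep a : ℤ) : F) * N (op a) b := by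
  rw [Matrix.mul_apply, Finset.sum_eq_single (op a)]
  · show (if op a = op a then ((ep a : ℤ) : F) else 0) * _ = _
    rw [if_pos rfl]
  · intro c _ hc
    show (if c = op a then ((ep a : ℤ) : F) else 0) * _ = _
    rw [if_neg hc, zero_mul]
  · intro h; exact absurd (Finset.mem_univ _) h

/-- the entries of the root vectors -/
theorem JM_NM_ne {r : ℕ} {a b : D1} (h : (JM F * NM F r) a b ≠ 0) : ∃ c, mv r (nn b) = some (nn (op a), c) := by
  rw [JM_mul_apply] at h
  have h1 : nz r (op a) b ≠ 0 := by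
    intro h0
    apply h
    show _ * ((nz r (op a) b : ℤ) : F) = 0
    rw [h0, Int.cast_zero, mul_zero]
  obtain ⟨c, h2, -⟩ := nz_ne h1
  exact ⟨c, h2⟩

theorem hq_bs (N : Matrix D1 D1 F) (m : D1) (c : F) : hq N (c • bs F m) = 0 := by
  refine hq_zero fun a b ha hb hab => ?_
  exfalso
  apply hab
  have h : ∀ d, (c • bs F m) d ≠ 0 → d = m := by
    intro d hd
    by_contra hne
    exact hd (by rw [Pi.smul_apply, bs_ne hne, smul_zero])
  rw [h a ha, h b hb]

theorem sing_bs (m : D1) (c : F) : Sing (c • bs F m) := LinearMap.ext fun z => hq_bs _ m c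

/-- some simple coroot is `±1` at every weight -/
theorem exists_cart : (W56.all fun s => (List.range 7).any fun i => decide (chevE8.cartan i s * chevE8.cartan i s = 1)) = true := by
  decide +kernel

theorem cart_one (m : D1) : ∃ i < 7, chevE8.cartan i (nn m) * chevE8.cartan i (nn m) = 1 := by
  have h := List.all_eq_true.1 exists_cart _ (nn_mem m)
  rw [List.any_eq_true] at h
  obtain ⟨i, hi, h1⟩ := h
  exact ⟨i, List.mem_range.1 hi, of_decide_eq_true h1⟩

theorem Hi_bs (i : ℕ) (m : D1) : Hi F i *ᵥ bs F m = ((chevE8.cartan i (nn m) : ℤ) : F) • bs F m := by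
  rw [Hi, diag_bs]

/-- the vectors orthogonal to `bs m` for the polar form of the moment map -/
theorem orth_bs {m : D1} {y : D1 → F} (h : ∀ z, sf F y (del F z *ᵥ bs F m) = 0) :
    (∀ a, p2 a m = -1 → y a = 0) ∧ y (op m) = 0 := by
  constructor
  · intro a ha
    have h1 : p2 (op a) m = 1 := by rw [p2_op, ha]; rfl
    obtain ⟨r, hr, c, hm, hc⟩ := exists_mv h1
    have h2 := h (Pi.single (Sum.inr ⟨r, hr⟩) 1)
    rw [del_inr] at h2
    change sf F y (NM F r *ᵥ bs F m) = 0 at h2
    rw [NM_bs_some hm, map_smul, smul_eq_mul, sf_swap, sf_single, op_op] at h2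
    have h3 := (mul_eq_zero.1 h2).resolve_left (cast_ne hc)
    exact (mul_eq_zero.1 (neg_eq_zero.1 h3)).resolve_left (cast_ne (ep_sq _))
  · obtain ⟨i, hi, h1⟩ := cart_one m
    have h2 := h (Pi.single (Sum.inl ⟨i, hi⟩) 1)
    rw [del_inl] at h2
    change sf F y (Hi F i *ᵥ bs F m) = 0 at h2
    rw [Hi_bs, map_smul, smul_eq_mul, sf_swap, sf_single] at h2
    have h3 := (mul_eq_zero.1 h2).resolve_left (cast_ne h1)
    exact (mul_eq_zero.1 (neg_eq_zero.1 h3)).resolve_left (cast_ne (ep_sq _))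

/-- a singular vector with a non-zero coordinate at `m` and zero coordinates at the neighbours of `m` -/
theorem sing_eq {m : D1} {x : D1 → F} (hx : Sing x) (hm : x m ≠ 0) (h0 : ∀ n, p2 n m = 1 → x n = 0) : x = x m • bs F m := by
  set w : D1 → F := x - x m • bs F m with hw
  have hxw : x = x m • bs F m + w := by rw [hw]; abel
  have hwm : w m = 0 := by rw [hw, Pi.sub_apply, Pi.smul_apply, bs_same, smul_eq_mul, mul_one, sub_self]
  have hwne : ∀ a, a ≠ m → w a = x a := by
    intro a ha
    rw [hw, Pi.sub_apply, Pi.smul_apply, bs_ne ha, smul_zero, sub_zero]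
  have hw1 : ∀ a, w a ≠ 0 → p2 a m = -1 ∨ p2 a m = -3 := by
    intro a ha
    rcases p2_cases a m with h | h | h | h
    · exact absurd (by rw [p2_eq_three.1 h]; exact hwm) ha
    · have hne : a ≠ m := by rintro rfl; rw [p2_self] at h; omega
      exact absurd (by rw [hwne a hne]; exact h0 a h) ha
    · exact Or.inl h
    · exact Or.inr h
  -- the root part
  have key1 : ∀ b, p2 b m = -1 → w b = 0 := by
    intro b hb
    have h1 : p2 (op b) m = 1 := by rw [p2_op, hb]; rfl
    obtain ⟨r, hr, c, hmv, hc⟩ := exists_mv h1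
    have h2 : Mu F x (Pi.single (Sum.inr ⟨r, hr⟩) 1) = 0 := by rw [hx]; rfl
    rw [Mu_apply, del_inr] at h2
    change hq (NM F r) x = 0 at h2
    have hsk : Sk (NM F r) := (SkZ_NZ hr).sk
    rw [hxw, hq_add hsk, hq_bs, zero_add, Matrix.mulVec_smul, NM_bs_some hmv, map_smul, map_smul, sf_swap, sf_single,
      op_op, smul_eq_mul, smul_eq_mul] at h2
    have h3 : hq (NM F r) w = 0 := by
      refine hq_zero fun a b' ha hb' hab => ?_
      by_contra hne
      obtain ⟨d, h4⟩ := JM_NM_ne hne
      have h5 := Tr.grade hr hmv h4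
      rw [p2_op] at h5
      rcases hw1 a ha with h6 | h6 <;> rcases hw1 b' hb' with h7 | h7 <;> omega
    rw [h3, zero_add] at h2
    have h4 := (mul_eq_zero.1 ((mul_eq_zero.1 h2).resolve_left hm)).resolve_left (cast_ne hc)
    exact (mul_eq_zero.1 (neg_eq_zero.1 h4)).resolve_left (cast_ne (ep_sq _))
  have hw3 : ∀ a, w a ≠ 0 → a = op m := by
    intro a ha
    rcases hw1 a ha with h | h
    · exact absurd (key1 a h) ha
    · rw [p2_comm] at h
      exact p2_eq_neg_three.1 h
  have key2 : w (op m) = 0 := by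
    obtain ⟨i, hi, h1⟩ := cart_one m
    have h2 : Mu F x (Pi.single (Sum.inl ⟨i, hi⟩) 1) = 0 := by rw [hx]; rfl
    rw [Mu_apply, del_inl] at h2
    change hq (Hi F i) x = 0 at h2
    have hsk : Sk (Hi F i) := by rw [← ct_HZ]; exact (SkZ_HZ hi).sk
    rw [hxw, hq_add hsk, hq_bs, zero_add, Matrix.mulVec_smul, Hi_bs, map_smul, map_smul, sf_swap, sf_single,
      smul_eq_mul, smul_eq_mul] at h2
    have h3 : hq (Hi F i) w = 0 := by
      refine hq_zero fun a b' ha hb' hab => ?_
      exfalso
      apply hab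
      rw [hw3 a ha, hw3 b' hb']
    rw [h3, zero_add] at h2
    have h4 := (mul_eq_zero.1 ((mul_eq_zero.1 h2).resolve_left hm)).resolve_left (cast_ne h1)
    exact (mul_eq_zero.1 (neg_eq_zero.1 h4)).resolve_left (cast_ne (ep_sq _))
  have hw0 : w = 0 := by
    funext a
    by_contra hne
    apply hne
    rw [hw3 a hne]
    exact key2
  rw [hw0, add_zero] at hxw
  exact hxw

/-- **normal form, with the element in a given subgroup** -/
theorem nf_mem (P : Subgroup (Gh F)) {m : D1} {x : D1 → F} (hx : Sing x) (hm : x m ≠ 0)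
    (hP : ∀ n, x n ≠ 0 → ∀ r < 126, ∀ c, mv r (nn m) = some (nn n, c) → ∀ t, xs F r t ∈ P) :
    ∃ g ∈ P, x = x m • V F g (bs F m) := by
  classical
  obtain ⟨g, hg, h1, h2, h3⟩ := Tr.clear P m hm (Finset.univ.filter fun n => p2 n m = 1 ∧ x n ≠ 0) (fun n hn => by
    obtain ⟨-, h4, h5⟩ := Finset.mem_filter.1 hn
    exact ⟨h4, hP n h5⟩)
  refine ⟨g⁻¹, P.inv_mem hg, ?_⟩
  have h4 : V F g x = x m • bs F m := by
    rw [← h1]
    refine sing_eq (hx.V g) (by rw [h1]; exact hm) fun n hn => ?_
    by_cases h5 : x n = 0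
    · rw [h3 n (fun h6 => (Finset.mem_filter.1 h6).2.2 h5) hn, h5]
    · exact h2 n (Finset.mem_filter.2 ⟨Finset.mem_univ _, hn, h5⟩)
  rw [← map_smul, ← h4, V_inv]

/-- **normal form of singular vectors** -/
theorem nf {m : D1} {x : D1 → F} (hx : Sing x) (hm : x m ≠ 0) :
    ∃ g : Gh F, x = x m • V F g (bs F m) ∧ ∀ n, p2 n m = -1 → x (op n) = 0 → V F g (bs F n) = bs F n := by
  let P : Subgroup (Gh F) :=
    { carrier := {g | ∀ n, p2 n m = -1 → x (op n) = 0 → V F g (bs F n) = bs F n}
      one_mem' := fun n _ _ => V_one _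
      mul_mem' := by
        intro a b ha hb n h1 h2
        rw [V_mul, hb n h1 h2, ha n h1 h2]
      inv_mem' := by
        intro a ha n h1 h2
        have h3 := V_inv a (bs F n)
        rwa [ha n h1 h2] at h3 }
  obtain ⟨g, hg, h⟩ := nf_mem P hx hm (fun n hn r hr c hmv t k h1 h2 => by
    rw [V_xs hr]
    rcases mv_spec hr k with h3 | ⟨a, d, h3, -⟩
    · have h3' := NM_bs_none (F := F) h3
      rw [h3', smul_zero, add_zero]
    · exfalso
      have h4 := Tr.grade hr hmv h3
      have h5 : p2 m a = -3 := by rw [p2_comm]; omega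
      have h6 := p2_eq_neg_three.1 h5
      rw [h6] at h3
      have h7 := mv_op hr h3
      rw [op_op, hmv, Option.some.injEq, Prod.mk.injEq] at h7
      apply hn
      rw [nn_inj h7.1]
      exact h2)
  exact ⟨g, h, hg⟩

end Cfsg.Agent.R2.T1.Mu2
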