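import Cfsg.Agent.R2.T1.Mu2.Quad

/-!
# The quadratic moment map of the 56-dimensional module of `E₇`, every characteristic (helper24)

* `hq N y` : half of `sf F y (N y)`;
* `Mu F y : (chevE7.Idx → F) →ₗ[F] F` : the moment map, `Mu F y z = "1/2 sf y (z y)"`, for `z` in the adjoint module `L F` (simply
  connected Lie algebra); it is defined in every characteristic;
* `Mu_V : Mu F (V F g y) (L F g z) = Mu F y z`;
* `Mu_add : Mu F (x + y) z = Mu F x z + Mu F y z + sf F y (del F z x)`, `Mu_smul`.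
-/

set_option autoImplicit false
set_option maxRecDepth 100000

namespace Cfsg.Agent.R2.T1.Mu2

open Cfsg Cfsg.Lie Matrix
open Cfsg.Agent.R2.T1 Cfsg.Agent.R2.PX
open Cfsg.Agent.ChevalleyStructure.Elts Cfsg.Agent.ChevalleyStructure.RootVec
  Cfsg.Agent.ChevalleyStructure.RootVecTab
open Cfsg.Agent.H943.E7V.Block (D1 rho)

universe u

/-! ### the integral matrices -/

/-- the form -/
noncomputable def JZ : Matrix D1 D1 ℤ := Matrix.of fun a b => if b = op a then ep a else 0

/-- the root vectors -/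
def NZ (r : ℕ) : Matrix D1 D1 ℤ := Matrix.of fun a b => nz r a b

/-- the simple coroots -/
def HZ (i : ℕ) : Matrix D1 D1 ℤ := Matrix.diagonal fun b => chevE8.cartan i (nn b)

/-- the coroots -/
def HdZ (r : ℕ) : Matrix D1 D1 ℤ := Matrix.diagonal fun b => wr r (nn b)

/-- the commutators -/
noncomputable def csZ (r s : ℕ) : Matrix D1 D1 ℤ :=
  match cs r s with
  | none => 0
  | some (u, c) => c • NZ u

section cast
variable (F : Type u) [Field F]

/-- the cast -/
def ct (A : Matrix D1 D1 ℤ) : Matrix D1 D1 F := A.map (Int.cast : ℤ → F)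

variable {F}

theorem ct_apply (A : Matrix D1 D1 ℤ) (a b : D1) : ct F A a b = ((A a b : ℤ) : F) := rfl

theorem ct_add (A B : Matrix D1 D1 ℤ) : ct F (A + B) = ct F A + ct F B := by
  ext a b; simp [ct_apply]

theorem ct_neg (A : Matrix D1 D1 ℤ) : ct F (-A) = - ct F A := by
  ext a b; simp [ct_apply]

theorem ct_zero : ct F 0 = 0 := by
  ext a b; simp [ct_apply]

theorem ct_zsmul (c : ℤ) (A : Matrix D1 D1 ℤ) : ct F (c • A) = (c : F) • ct F A := by
  ext a b
  rw [Matrix.smul_apply, ct_apply, ct_apply, Matrix.smul_apply, smul_eq_mul, smul_eq_mul, Int.cast_mul]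

theorem ct_mul (A B : Matrix D1 D1 ℤ) : ct F (A * B) = ct F A * ct F B :=
  Matrix.map_mul (f := Int.castRingHom F)

theorem ct_inj {A B : Matrix D1 D1 ℤ} (h : ct ℚ A = ct ℚ B) : A = B := by
  ext a b
  exact Int.cast_injective (α := ℚ) (congrFun (congrFun h a) b)

theorem ct_JZ : ct F JZ = JM F := by
  ext a b
  show (((if b = op a then ep a else 0 : ℤ)) : F) = if b = op a then ((ep a : ℤ) : F) else 0
  split_ifs <;> simp

theorem ct_NZ (r : ℕ) : ct F (NZ r) = NM F r := rfl

theorem ct_HZ (i : ℕ) : ct F (HZ i) = Hi F i := by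
  ext a b
  rw [ct_apply, HZ, Hi, Matrix.diagonal_apply, Matrix.diagonal_apply]
  split_ifs <;> simp

theorem ct_HdZ (r : ℕ) : ct F (HdZ r) = Hd F r := by
  ext a b
  rw [ct_apply, HdZ, Hd, Matrix.diagonal_apply, Matrix.diagonal_apply]
  split_ifs <;> simp

theorem ct_csZ (r s : ℕ) : ct F (csZ r s) = csM F r s := by
  unfold csZ csM
  rcases cs r s with _ | ⟨u, c⟩
  · exact ct_zero
  · dsimp only
    rw [ct_zsmul, ct_NZ]

end cast

theorem JZ_apply (a b : D1) : JZ a b = if b = op a then ep a else 0 := rfl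

theorem JZ_transpose : JZᵀ = -JZ := by
  ext a b
  rw [Matrix.transpose_apply, Matrix.neg_apply, JZ_apply, JZ_apply]
  by_cases h : b = op a
  · have h' : a = op b := by rw [h, op_op]
    rw [if_pos h, if_pos h', h, ep_op]
  · have h' : a ≠ op b := fun h' => h (by rw [h', op_op])
    rw [if_neg h, if_neg h', neg_zero]

/-- the integral skew-adjoint matrices with the property of the diagonal -/
structure SkZ (A : Matrix D1 D1 ℤ) : Prop where
  adj : Aᵀ * JZ = -(JZ * A)
  diag : ∀ a, A (op a) a = 0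

theorem SkZ.up {A : Matrix D1 D1 ℤ} (h : SkZ A) : Up (JZ * A) + (Up (JZ * A))ᵀ = JZ * A := by
  apply Up_add
  · rw [Matrix.transpose_mul, JZ_transpose, Matrix.mul_neg, h.adj, _root_.neg_neg]
  · intro a
    rw [Matrix.mul_apply, Finset.sum_eq_single (op a)]
    · rw [h.diag, mul_zero]
    · intro b _ hb
      rw [JZ_apply, if_neg hb, zero_mul]
    · intro h; exact absurd (Finset.mem_univ _) h

theorem SkZ.zero : SkZ 0 := ⟨by simp, fun a => rfl⟩

theorem SkZ.smul {A : Matrix D1 D1 ℤ} (h : SkZ A) (c : ℤ) : SkZ (c • A) :=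
  ⟨by rw [Matrix.transpose_smul, Matrix.smul_mul, h.adj, Matrix.mul_smul, smul_neg], fun a => by
    rw [Matrix.smul_apply, h.diag, smul_zero]⟩

theorem SkZ.neg {A : Matrix D1 D1 ℤ} (h : SkZ A) : SkZ (-A) :=
  ⟨by rw [Matrix.transpose_neg, Matrix.neg_mul, h.adj, Matrix.mul_neg], fun a => by
    rw [Matrix.neg_apply, h.diag, neg_zero]⟩

theorem NZ_adj {r : ℕ} (hr : r < 126) : (NZ r)ᵀ * JZ = -(JZ * NZ r) := by
  apply ct_inj
  have h := NM_JM (F := ℚ) hr
  rw [ct_neg, ct_mul, ct_mul, ct_JZ]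
  have e : ct ℚ (NZ r)ᵀ = (NM ℚ r)ᵀ := rfl
  rw [e, ct_NZ]
  exact eq_neg_of_add_eq_zero_left h

/-- a weight and its opposite do not differ by a root -/
theorem chkOp : ((List.range 126).all fun r => (T56.getD r []).all fun x => !(Nat.beq (st x.1).1 x.2.1)) = true := by
  decide +kernel

theorem NZ_diag {r : ℕ} (hr : r < 126) (a : D1) : NZ r (op a) a = 0 := by
  by_contra hne
  obtain ⟨c, h, -⟩ := nz_ne hne
  have h1 := List.all_eq_true.1 chkOp r (List.mem_range.2 hr)
  rw [List.all_eq_true] at h1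
  unfold mv at h
  have h2 := List.mem_of_mem_head? h
  unfold F56 at h2
  rw [List.mem_map] at h2
  obtain ⟨x, hx, hx'⟩ := h2
  rw [List.mem_filter] at hx
  have h3 := h1 x hx.1
  have h4 : x.1 = nn a := Nat.eq_of_beq_eq_true hx.2
  have h5 : x.2.1 = nn (op a) := by rw [hx']
  rw [h4, h5, st_eq] at h3
  simp at h3

theorem SkZ_NZ {r : ℕ} (hr : r < 126) : SkZ (NZ r) := ⟨NZ_adj hr, NZ_diag hr⟩

theorem cart_TE : (TE.all fun x => (List.range 7).all fun i => decide (chevE8.cartan i x.2.1 = -chevE8.cartan i x.1)) = true := by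
  decide +kernel

theorem cart_op {i : ℕ} (hi : i < 7) (a : D1) : chevE8.cartan i (nn (op a)) = - chevE8.cartan i (nn a) := by
  have h := TE_all (nn a) (nn_lt a) (rt_nn a)
  have h1 := List.all_eq_true.1 (List.all_eq_true.1 cart_TE _ h) i (List.mem_range.2 hi)
  rw [decide_eq_true_eq, st_eq] at h1
  exact h1

theorem diag_adj {d : D1 → ℤ} (hd : ∀ a, d (op a) = - d a) :
    (Matrix.diagonal d)ᵀ * JZ = -(JZ * Matrix.diagonal d) := by
  ext a b
  rw [Matrix.diagonal_transpose, Matrix.diagonal_mul, Matrix.neg_apply, Matrix.mul_diagonal, JZ_apply]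
  by_cases h : b = op a
  · rw [if_pos h, h, hd]; ring
  · rw [if_neg h]; ring

theorem SkZ_diag {d : D1 → ℤ} (hd : ∀ a, d (op a) = - d a) : SkZ (Matrix.diagonal d) :=
  ⟨diag_adj hd, fun a => Matrix.diagonal_apply_ne _ (ne_op a).symm⟩

theorem SkZ_HZ {i : ℕ} (hi : i < 7) : SkZ (HZ i) := SkZ_diag fun a => cart_op hi a

theorem NZ_comm_neg {r : ℕ} (hr : r < 126) : NZ r * NZ (125 - r) = NZ (125 - r) * NZ r + HdZ r := by
  apply ct_inj
  rw [ct_add, ct_mul, ct_mul, ct_NZ, ct_NZ, ct_HdZ, ← NM_comm_neg hr]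
  abel

theorem SkZ_HdZ {r : ℕ} (hr : r < 126) : SkZ (HdZ r) := by
  have h1 : HdZ r = NZ r * NZ (125 - r) - NZ (125 - r) * NZ r := by rw [NZ_comm_neg hr]; abel
  refine ⟨?_, fun a => Matrix.diagonal_apply_ne _ (ne_op a).symm⟩
  have a1 := NZ_adj hr
  have a2 := NZ_adj (r := 125 - r) (by omega)
  rw [h1, Matrix.transpose_sub, Matrix.transpose_mul, Matrix.transpose_mul, Matrix.sub_mul, Matrix.mul_assoc, a1,
    Matrix.mul_assoc, a2, Matrix.mul_neg, ← Matrix.mul_assoc, a2, Matrix.mul_neg, ← Matrix.mul_assoc, a1]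
  noncomm_ring

theorem NZ_comm {r s : ℕ} (hr : r < 126) (hs : s < 126) (hne : s ≠ 125 - r) : NZ r * NZ s = NZ s * NZ r + csZ r s := by
  apply ct_inj
  rw [ct_add, ct_mul, ct_mul, ct_NZ, ct_NZ, ct_csZ, ← NM_comm hr hs hne]
  abel

theorem SkZ_csZ {r s : ℕ} (hr : r < 126) (hs : s < 126) : SkZ (csZ r s) := by
  unfold csZ
  rcases h : cs r s with _ | ⟨u, c⟩
  · exact SkZ.zero
  · dsimp only
    apply SkZ.smul
    apply SkZ_NZ
    unfold cs at h
    by_cases h0 : lk (PC.getD r 0) s = 0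
    · rw [if_pos h0] at h; exact absurd h (by simp)
    rw [if_neg h0, Option.some.injEq, Prod.mk.injEq] at h
    rcases PC_spec hr hs with ⟨h5, -⟩ | ⟨-, -, h5, -, -⟩
    · exact absurd h5 h0
    · rw [← h.1]; exact h5

theorem csZ_NZ {r s : ℕ} (hr : r < 126) (hs : s < 126) (hne : s ≠ 125 - r) : csZ r s * NZ r = 0 := by
  apply ct_inj
  rw [ct_mul, ct_csZ, ct_NZ, csM_NM (by norm_num) hr hs hne, ct_zero]

theorem NZ_sq {r : ℕ} (hr : r < 126) : NZ r * NZ r = 0 := by
  apply ct_inj
  rw [ct_mul, ct_NZ, NM_mul_self hr, ct_zero]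

theorem HdZ_NZ {r : ℕ} (hr : r < 126) : HdZ r * NZ r = NZ r := by
  apply ct_inj
  rw [ct_mul, ct_NZ, ct_HdZ, Hd_NM hr]

theorem HZ_comm {r i : ℕ} (hr : r < 126) (hi : i < 7) : NZ r * HZ i = HZ i * NZ r + (-(chevE7.cartan i r)) • NZ r := by
  apply ct_inj
  rw [ct_add, ct_mul, ct_mul, ct_NZ, ct_HZ, ct_zsmul, ct_NZ, Int.cast_neg, neg_smul, ← Hi_comm hr hi]
  abel

/-! ### the half-forms -/

section hq
variable {F : Type u} [Field F]

/-- half of `sf F y (N y)` -/
noncomputable def hq (N : Matrix D1 D1 F) (y : D1 → F) : F :=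
  ∑ a, ∑ b, if a < b then (JM F * N) a b * y a * y b else 0

theorem hq_add_left (M N : Matrix D1 D1 F) (y : D1 → F) : hq (M + N) y = hq M y + hq N y := by
  unfold hq
  simp only [← Finset.sum_add_distrib]
  refine Finset.sum_congr rfl fun a _ => Finset.sum_congr rfl fun b _ => ?_
  rw [Matrix.mul_add, Matrix.add_apply]
  split_ifs <;> ring

theorem hq_smul_left (c : F) (N : Matrix D1 D1 F) (y : D1 → F) : hq (c • N) y = c * hq N y := by
  unfold hq
  simp only [Finset.mul_sum]
  refine Finset.sum_congr rfl fun a _ => Finset.sum_congr rfl fun b _ => ?_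
  rw [Matrix.mul_smul, Matrix.smul_apply, smul_eq_mul]
  split_ifs <;> ring

theorem hq_smul (N : Matrix D1 D1 F) (c : F) (y : D1 → F) : hq N (c • y) = c ^ 2 * hq N y := by
  unfold hq
  simp only [Finset.mul_sum]
  refine Finset.sum_congr rfl fun a _ => Finset.sum_congr rfl fun b _ => ?_
  rw [Pi.smul_apply, Pi.smul_apply, smul_eq_mul, smul_eq_mul]
  split_ifs <;> ring

theorem hq_ct (A : Matrix D1 D1 ℤ) (y : D1 → F) : hq (ct F A) y = qf (Up (JZ * A)) y := by
  unfold hq qf
  refine Finset.sum_congr rfl fun a _ => Finset.sum_congr rfl fun b _ => ?_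
  rw [Up_apply, ← ct_JZ, ← ct_mul, ct_apply]
  split_ifs
  · rfl
  · simp

/-- skew-adjoint matrices with the property of the diagonal -/
structure Sk (A : Matrix D1 D1 F) : Prop where
  symm : (JM F * A)ᵀ = JM F * A
  diag : ∀ a, (JM F * A) a a = 0

theorem SkZ.sk {A : Matrix D1 D1 ℤ} (h : SkZ A) : Sk (ct F A) := by
  have h1 : (JZ * A)ᵀ = JZ * A := by rw [Matrix.transpose_mul, JZ_transpose, Matrix.mul_neg, h.adj, _root_.neg_neg]
  constructor
  · rw [← ct_JZ, ← ct_mul]
    show ct F (JZ * A)ᵀ = _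
    rw [h1]
  · intro a
    rw [← ct_JZ, ← ct_mul, ct_apply, Matrix.mul_apply, Finset.sum_eq_single (op a)]
    · rw [h.diag, mul_zero, Int.cast_zero]
    · intro b _ hb
      rw [JZ_apply, if_neg hb, zero_mul]
    · intro h; exact absurd (Finset.mem_univ _) h

theorem Sk.zero : Sk (0 : Matrix D1 D1 F) := ⟨by simp, fun a => by simp⟩

theorem Sk.add {A B : Matrix D1 D1 F} (hA : Sk A) (hB : Sk B) : Sk (A + B) :=
  ⟨by rw [Matrix.mul_add, Matrix.transpose_add, hA.symm, hB.symm], fun a => by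
    rw [Matrix.mul_add, Matrix.add_apply, hA.diag, hB.diag, add_zero]⟩

theorem Sk.smul {A : Matrix D1 D1 F} (hA : Sk A) (c : F) : Sk (c • A) :=
  ⟨by rw [Matrix.mul_smul, Matrix.transpose_smul, hA.symm], fun a => by
    rw [Matrix.mul_smul, Matrix.smul_apply, hA.diag, smul_zero]⟩

/-- polarization -/
theorem hq_add {N : Matrix D1 D1 F} (hN : Sk N) (x y : D1 → F) :
    hq N (x + y) = hq N x + hq N y + sf F y (N *ᵥ x) := by
  have h1 : sf F y (N *ᵥ x) = ∑ a, ∑ b, (if a < b then (JM F * N) a b * (x a * y b + y a * x b) else 0) := by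
    rw [sf_apply, Matrix.mulVec_mulVec, dotProduct]
    have e : ∀ a b : D1, (JM F * N) a b * (y a * x b) = (if a < b then (JM F * N) a b * (y a * x b) else 0) +
        (if b < a then (JM F * N) b a * (y a * x b) else 0) := by
      intro a b
      rcases lt_trichotomy a b with h | h | h
      · rw [if_pos h, if_neg (lt_asymm h), add_zero]
      · subst h
        rw [if_neg (lt_irrefl a), hN.diag]; ring
      · rw [if_neg (lt_asymm h), if_pos h, zero_add]
        have := congrFun (congrFun hN.symm b) a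
        rw [Matrix.transpose_apply] at this
        rw [this]
    calc ∑ a, y a * ((JM F * N) *ᵥ x) a = ∑ a, ∑ b, (JM F * N) a b * (y a * x b) := by
          refine Finset.sum_congr rfl fun a _ => ?_
          rw [Matrix.mulVec, dotProduct, Finset.mul_sum]
          exact Finset.sum_congr rfl fun b _ => by ring
      _ = ∑ a, ∑ b, (if a < b then (JM F * N) a b * (y a * x b) else 0) +
          ∑ a, ∑ b, (if b < a then (JM F * N) b a * (y a * x b) else 0) := by
          rw [← Finset.sum_add_distrib]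
          refine Finset.sum_congr rfl fun a _ => ?_
          rw [← Finset.sum_add_distrib]
          exact Finset.sum_congr rfl fun b _ => e a b
      _ = _ := by
          rw [Finset.sum_comm (f := fun a b => if b < a then (JM F * N) b a * (y a * x b) else 0), ← Finset.sum_add_distrib]
          refine Finset.sum_congr rfl fun a _ => ?_
          rw [← Finset.sum_add_distrib]
          refine Finset.sum_congr rfl fun b _ => ?_
          split_ifs <;> ring
  rw [h1]
  unfold hq
  simp only [← Finset.sum_add_distrib]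
  refine Finset.sum_congr rfl fun a _ => Finset.sum_congr rfl fun b _ => ?_
  rw [Pi.add_apply, Pi.add_apply]
  split_ifs <;> ring

end hq

/-! ### the moment map -/

section mu
variable (F : Type u) [Field F]

/-- **the quadratic moment map** -/
noncomputable def Mu (y : D1 → F) : (chevE7.Idx → F) →ₗ[F] F where
  toFun z := hq (del F z) y
  map_add' z w := by rw [map_add, hq_add_left]
  map_smul' c z := by rw [map_smul, hq_smul_left]; rfl

variable {F}

theorem Mu_apply (y : D1 → F) (z : chevE7.Idx → F) : Mu F y z = hq (del F z) y := rfl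

theorem Sk_del (z : chevE7.Idx → F) : Sk (del F z) := by
  rw [del_apply]
  refine Sk.add ?_ ?_
  · refine Finset.sum_induction _ Sk (fun _ _ => Sk.add) Sk.zero fun i _ => ?_
    rw [← ct_HZ]
    exact (SkZ_HZ i.2).sk.smul _
  · refine Finset.sum_induction _ Sk (fun _ _ => Sk.add) Sk.zero fun s _ => ?_
    rw [← ct_NZ]
    exact (SkZ_NZ s.2).sk.smul _

/-- polarization -/
theorem Mu_add (x y : D1 → F) (z : chevE7.Idx → F) :
    Mu F (x + y) z = Mu F x z + Mu F y z + sf F y (del F z *ᵥ x) := hq_add (Sk_del z) x y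

theorem Mu_smul (c : F) (y : D1 → F) : Mu F (c • y) = c ^ 2 • Mu F y := by
  refine LinearMap.ext fun z => ?_
  rw [Mu_apply, hq_smul]; rfl

theorem Mu_zero : Mu F (0 : D1 → F) = 0 := by
  have h := Mu_smul (0 : F) (0 : D1 → F)
  rwa [zero_smul, zero_pow two_ne_zero, zero_smul] at h

theorem Mu_x_basis {r : ℕ} (hr : r < 126) (t : F) (j : chevE7.Idx) (y : D1 → F) :
    hq (del F (chevE7.x F r t *ᵥ Pi.single j 1)) (y + t • (NM F r *ᵥ y)) = hq (del F (Pi.single j 1)) y := by
  have main : ∀ D0 D1' D2 : Matrix D1 D1 ℤ, SkZ D0 → SkZ D1' → SkZ D2 → NZ r * D0 = D0 * NZ r + D1' →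
      D1' * NZ r + D2 = 0 → D2 * NZ r = 0 →
      hq (ct F D0 + t • ct F D1' + (t ^ 2) • ct F D2) (y + t • (NM F r *ᵥ y)) = hq (ct F D0) y := by
    intro D0 D1' D2 s0 s1 s2 h1 h2 h3
    rw [hq_add_left, hq_add_left, hq_smul_left, hq_smul_left, hq_ct, hq_ct, hq_ct, hq_ct]
    exact equi_aux (NZ_adj hr) (NZ_sq hr) h1 h2 h3 s0.up s1.up s2.up t y
  rcases j with i | ⟨s, hs⟩
  · rw [del_inl, del_x_inl hr, ← ct_HZ]
    have h := main (HZ i) ((-(chevE7.cartan i r)) • NZ r) 0 (SkZ_HZ i.2) ((SkZ_NZ hr).smul _) SkZ.zero (HZ_comm hr i.2)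
      (by rw [Matrix.smul_mul, NZ_sq hr, smul_zero, add_zero]) (Matrix.zero_mul _)
    rw [← h]
    congr 1
    rw [ct_zsmul, ct_NZ, ct_zero, smul_zero, add_zero, smul_smul, Int.cast_neg, mul_neg, neg_smul, sub_eq_add_neg, mul_comm]
  · have hs' : s < 126 := hs
    rw [del_inr]
    show _ = hq (NM F s) y
    by_cases h3 : s = r
    · subst h3
      rw [del_x_self hr]
      have h := main (NZ s) 0 0 (SkZ_NZ hr) SkZ.zero SkZ.zero (by rw [add_zero]) (by rw [Matrix.zero_mul, add_zero])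
        (Matrix.zero_mul _)
      rw [ct_zero, smul_zero, smul_zero, add_zero, add_zero, ct_NZ] at h
      exact h
    by_cases h4 : s = 125 - r
    · subst h4
      rw [del_x_neg hr]
      have h := main (NZ (125 - r)) (HdZ r) (-NZ r) (SkZ_NZ (by omega)) (SkZ_HdZ hr) (SkZ_NZ hr).neg (NZ_comm_neg hr)
        (by rw [HdZ_NZ hr, add_neg_cancel]) (by rw [Matrix.neg_mul, NZ_sq hr, neg_zero])
      rw [ct_NZ, ct_HdZ, ct_neg, ct_NZ, smul_neg, ← sub_eq_add_neg] at h
      exact h
    · rw [del_x_inr hr hs' h4 h3]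
      have h := main (NZ s) (csZ r s) 0 (SkZ_NZ hs') (SkZ_csZ hr hs') SkZ.zero (NZ_comm hr hs' h4)
        (by rw [csZ_NZ hr hs' h4, add_zero]) (Matrix.zero_mul _)
      rw [ct_zero, smul_zero, add_zero, ct_NZ, ct_csZ] at h
      exact h

theorem Mu_x {r : ℕ} (hr : r < 126) (t : F) (z : chevE7.Idx → F) (y : D1 → F) :
    Mu F (y + t • (NM F r *ᵥ y)) (chevE7.x F r t *ᵥ z) = Mu F y z := by
  have hz : z = ∑ j, z j • (Pi.single j (1 : F) : chevE7.Idx → F) := by
    ext k
    simp [Finset.sum_apply, Pi.single_apply]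
  rw [hz, Matrix.mulVec_sum, map_sum, map_sum]
  refine Finset.sum_congr rfl fun j _ => ?_
  rw [Matrix.mulVec_smul, map_smul, map_smul]
  congr 1
  exact Mu_x_basis hr t j y

/-- **equivariance** -/
theorem Mu_adM (g : Gh F) (y : D1 → F) (z : chevE7.Idx → F) : Mu F (V F g y) (adM F g *ᵥ z) = Mu F y z := by
  have h := mem_of_gens (F := F) (S :=
    { carrier := {g | ∀ (y : D1 → F) (z : chevE7.Idx → F), Mu F (V F g y) (adM F g *ᵥ z) = Mu F y z}
      one_mem' := fun y z => by rw [map_one, map_one, Matrix.one_mulVec, Module.End.one_apply]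
      mul_mem' := by
        intro a b ha hb y z
        rw [V_mul, map_mul, ← Matrix.mulVec_mulVec, ha, hb]
      inv_mem' := by
        intro a ha y z
        rw [← ha (V F a⁻¹ y) (adM F a⁻¹ *ᵥ z), V_inv', Matrix.mulVec_mulVec, ← map_mul, mul_inv_cancel, map_one,
          Matrix.one_mulVec] }) ?_ g
  · exact h y z
  · intro r hr t y z
    rw [V_xs hr, adM_xs]
    exact Mu_x hr t z y

/-- **equivariance** -/
theorem Mu_V (g : Gh F) (y : D1 → F) (z : chevE7.Idx → F) : Mu F (V F g y) (L F g z) = Mu F y z := by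
  rw [L_adM, Matrix.toLin'_apply]
  exact Mu_adM g y z

/-- **equivariance** -/
theorem Mu_V' (g : Gh F) (y : D1 → F) : Mu F (V F g y) = (Mu F y).comp (L F g⁻¹) := by
  refine LinearMap.ext fun z => ?_
  rw [LinearMap.comp_apply, ← Mu_V g y, ← Module.End.mul_apply, ← map_mul, mul_inv_cancel, map_one, Module.End.one_apply]

/-- singular vectors -/
def Sing (x : D1 → F) : Prop := Mu F x = 0

theorem Sing.V {x : D1 → F} (h : Sing x) (g : Gh F) : Sing (V F g x) := by
  unfold Sing at h ⊢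
  rw [Mu_V', h, LinearMap.zero_comp]

theorem sing_V {x : D1 → F} {g : Gh F} : Sing (V F g x) ↔ Sing x := by
  refine ⟨fun h => ?_, fun h => h.V g⟩
  have := h.V g⁻¹
  rwa [V_inv] at this

theorem Sing.smul {x : D1 → F} (h : Sing x) (c : F) : Sing (c • x) := by
  unfold Sing at h ⊢
  rw [Mu_smul, h, smul_zero]

end mu

end Cfsg.Agent.R2.T1.Mu2
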