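import Cfsg.Agent.R2.T1.Mu2.Ts
import Cfsg.Agent.R2.T1.Mu.Equ

/-!
# The quadratic moment map: invariant functionals (helper24)

* `fix_zero` : a linear functional on the adjoint module which is invariant under `Gh F` vanishes;
* `func_zero` : an `H`-invariant functional `Mu F x` vanishes (`H` maximal, `4 |H| < q ^ 76`).
-/

set_option autoImplicit false
set_option maxRecDepth 100000

namespace Cfsg.Agent.R2.T1.Mu2

open Cfsg Cfsg.Lie Matrix Module
open Cfsg.Agent.R2.T1 Cfsg.Agent.R2.PX
open Cfsg.Agent.ChevalleyStructure.Elts Cfsg.Agent.ChevalleyStructure.RootVec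
  Cfsg.Agent.ChevalleyStructure.RootVecTab
open Cfsg.Agent.H943.E7V.Block (D1 rho)

universe u
variable {F : Type u} [Field F] {H : Subgroup ↥(chevE7.group F)}

theorem L_xs (r : ℕ) (t : F) (z : chevE7.Idx → F) : L F (xs F r t) z = chevE7.x F r t *ᵥ z := by
  rw [L_adM, Matrix.toLin'_apply, adM_xs]

/-- the root vector -/
noncomputable def er (F : Type u) [Field F] (s : ℕ) (hs : s < 126) : chevE7.Idx → F := Pi.single (Sum.inr ⟨s, hs⟩) 1

/-- the coroot -/
noncomputable def hv (F : Type u) [Field F] (r : ℕ) : chevE7.Idx → F :=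
  ∑ i : Fin chevE7.rank, (((chevE7.coroot.getD r #[]).getD i 0 : ℤ) : F) • Pi.single (Sum.inl i) 1

theorem del_er {s : ℕ} (hs : s < 126) : del F (er F s hs) = NM F s := del_inr ⟨s, hs⟩

theorem del_hv (r : ℕ) : del F (hv F r) = Hd F r := by
  unfold hv
  rw [map_sum, Hd_eq]
  exact Finset.sum_congr rfl fun i _ => by rw [map_smul, del_inl]

theorem L_xs_neg {r : ℕ} (hr : r < 126) (t : F) : L F (xs F r t) (er F (125 - r) (by omega)) =
    er F (125 - r) (by omega) + t • hv F r - (t ^ 2) • er F r hr := by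
  apply Mu.del_injective
  rw [L_xs]
  have h := del_x_neg (F := F) hr t
  rw [map_sub, map_add, map_smul, map_smul, del_er, del_er, del_hv]
  exact h

theorem L_xs_gen {r s u : ℕ} {c : ℤ} (hr : r < 126) (hs : s < 126) (hu : u < 126) (hne : s ≠ 125 - r) (hne' : s ≠ r)
    (h : cs r s = some (u, c)) (t : F) : L F (xs F r t) (er F s hs) = er F s hs + (t * (c : F)) • er F u hu := by
  apply Mu.del_injective
  rw [L_xs]
  have h1 := del_x_inr (F := F) hr hs hne hne' t
  have h2 : csM F r s = (c : F) • NM F u := by unfold csM; rw [h]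
  rw [map_add, map_smul, del_er, del_er, ← smul_smul, ← h2]
  exact h1

/-- every root is a sum of two roots -/
theorem chkSum : ((List.range 126).all fun u => (List.range 126).any fun r => (List.range 126).any fun s =>
    !(Nat.beq (lk (PC.getD r 0) s) 0) && Nat.beq ((lk (PC.getD r 0) s - 2) / 2) u) = true := by
  decide +kernel

theorem chkSimple : ∀ i < 7, ∀ j < 7, (chevE7.coroot.getD (chevE7.simple i) #[]).getD j 0 = if j = i then 1 else 0 := by
  decide +kernel

/-- **invariant functionals on the adjoint module** -/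
theorem fix_zero {c : (chevE7.Idx → F) →ₗ[F] F} (h : ∀ (g : Gh F) (z : chevE7.Idx → F), c (L F g z) = c z) : c = 0 := by
  have h1 : ∀ u (hu : u < 126), c (er F u hu) = 0 := by
    intro u hu
    have h2 := List.all_eq_true.1 chkSum u (List.mem_range.2 hu)
    rw [List.any_eq_true] at h2
    obtain ⟨r, hr, h2⟩ := h2
    rw [List.any_eq_true] at h2
    obtain ⟨s, hs, h2⟩ := h2
    rw [List.mem_range] at hr hs
    rw [Bool.and_eq_true, Bool.not_eq_true'] at h2
    have h3 : lk (PC.getD r 0) s ≠ 0 := by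
      intro h0
      rw [h0] at h2
      exact absurd h2.1 (by simp)
    have h4 := Nat.eq_of_beq_eq_true h2.2
    rcases PC_spec hr hs with ⟨h5, -⟩ | ⟨-, -, -, h5, h6⟩
    · exact absurd h5 h3
    obtain ⟨d, hd, hd1⟩ : ∃ d : ℤ, cs r s = some (u, d) ∧ d * d = 1 := by
      unfold cs
      rw [if_neg h3, h4]
      split_ifs
      · exact ⟨1, rfl, rfl⟩
      · exact ⟨-1, rfl, rfl⟩
    have h7 := h (xs F r 1) (er F s hs)
    rw [L_xs_gen hr hs hu h5 h6 hd, map_add, map_smul, one_mul, add_eq_left, smul_eq_mul] at h7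
    exact (mul_eq_zero.1 h7).resolve_left (cast_ne hd1)
  have h2 : ∀ r < 126, c (hv F r) = 0 := by
    intro r hr
    have h3 := h (xs F r 1) (er F (125 - r) (by omega))
    rw [L_xs_neg hr, map_sub, map_add, map_smul, map_smul, h1, h1, one_smul, smul_zero, sub_zero, zero_add] at h3
    exact h3
  have h3 : ∀ i : Fin chevE7.rank, c (Pi.single (Sum.inl i) 1) = 0 := by
    intro i
    have h4 := h2 (chevE7.simple i) (simple_lt7 i i.2)
    have h5 : hv F (chevE7.simple i) = Pi.single (Sum.inl i) 1 := by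
      unfold hv
      rw [Finset.sum_eq_single i]
      · rw [chkSimple i i.2 i i.2, if_pos rfl, Int.cast_one, one_smul]
      · intro j _ hj
        rw [chkSimple i i.2 j j.2, if_neg fun h6 => hj (Fin.ext h6), Int.cast_zero, zero_smul]
      · intro h6; exact absurd (Finset.mem_univ _) h6
    rwa [h5] at h4
  apply LinearMap.pi_ext'
  intro j
  refine LinearMap.ext_ring ?_
  rw [LinearMap.comp_apply, LinearMap.zero_comp, LinearMap.zero_apply]
  rcases j with i | s
  · exact h3 i
  · exact h1 s s.2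

/-- **invariant values of the moment map** -/
theorem func_zero [Finite F] (hM : IsCoatom H) (hcard : 4 * Nat.card ↥H < Nat.card F ^ 76) {x : D1 → F}
    (h : ∀ g : Gh F, ad F g ∈ H → Mu F (V F g x) = Mu F x) : Mu F x = 0 := by
  by_contra hne
  let S : Subgroup (Gh F) :=
    { carrier := {g | Mu F (V F g x) = Mu F x}
      one_mem' := by
        show Mu F (V F 1 x) = Mu F x
        rw [V_one]
      mul_mem' := by
        intro a b ha hb
        change Mu F (V F a x) = Mu F x at ha
        change Mu F (V F b x) = Mu F x at hb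
        show Mu F (V F (a * b) x) = Mu F x
        rw [V_mul, Mu_V', hb, ← Mu_V', ha]
      inv_mem' := by
        intro a ha
        change Mu F (V F a x) = Mu F x at ha
        show Mu F (V F a⁻¹ x) = Mu F x
        refine LinearMap.ext fun z => ?_
        calc Mu F (V F a⁻¹ x) z = Mu F x (L F a z) := by rw [← Mu_V a (V F a⁻¹ x) z, V_inv']
          _ = Mu F (V F a x) (L F a z) := by rw [ha]
          _ = Mu F x z := Mu_V a x z }
  have hS : ∀ g, g ∈ S ↔ Mu F (V F g x) = Mu F x := fun g => Iff.rfl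
  have h2 : H.comap (ad F) ≤ S := fun g hg => h g hg
  have h3 : H ≤ S.map (ad F) := by
    intro y hy
    obtain ⟨g, rfl⟩ := ad_surjective y
    exact ⟨g, h2 hy, rfl⟩
  have hker : ∀ g, ad F g = 1 → g ∈ S := fun g hg => h2 (by rw [Subgroup.mem_comap, hg]; exact one_mem _)
  have hSt : S = H.comap (ad F) := by
    rcases eq_or_lt_of_le h3 with h4 | h4
    · refine le_antisymm (fun g hg => ?_) h2
      rw [Subgroup.mem_comap, h4]
      exact ⟨g, hg, rfl⟩
    · exfalso
      apply hne
      have h5 : S.map (ad F) = ⊤ := hM.2 _ h4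
      have h6 : ∀ g, g ∈ S := by
        intro g
        have h7 : ad F g ∈ S.map (ad F) := by rw [h5]; trivial
        obtain ⟨s, hs, hs'⟩ := h7
        have h8 : s⁻¹ * g ∈ S := hker _ (by rw [map_mul, map_inv, hs', inv_mul_cancel])
        have h9 := mul_mem hs h8
        rwa [mul_inv_cancel_left] at h9
      apply fix_zero
      intro g z
      have h7 := (hS g).1 (h6 g)
      rw [← h7, Mu_V, h7]
  have h4 := Cfsg.Agent.H952.F4.MaxA.count (ρ := V F) (H.comap (ad F)) {x} (by
    rw [Set.mem_singleton_iff]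
    rintro rfl
    exact hne Mu_zero) (by
    intro w hw w' hw' g hg
    rw [Set.mem_singleton_iff] at hw hw'
    rw [hw, hw'] at hg
    rw [← hSt, hS, hg])
  have hq := two_le_card (F := F)
  have e0 : Nat.card ({x} : Set (D1 → F)) = 1 := by rw [Nat.card_unique]
  have e1 := Subgroup.card_mul_index (H.comap (ad F))
  have e2 := Subgroup.card_mul_index H
  rw [Subgroup.index_comap_of_surjective H ad_surjective] at e1
  have hpos : 0 < Nat.card ↥(H.comap (ad F)) := Nat.card_pos
  rw [e0, one_mul, finrank_V, ← e1] at h4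
  have h5 : H.index ≤ Nat.card F ^ 56 - 1 := Nat.le_of_mul_le_mul_left h4 hpos
  have h6 : Nat.card ↥(chevE7.group F) ≤ Nat.card ↥H * Nat.card F ^ 56 := by
    rw [← e2]
    exact Nat.mul_le_mul_left _ (by omega)
  have h7 := order_ge (F := F)
  have h8 : Nat.card F ^ 132 = Nat.card F ^ 76 * Nat.card F ^ 56 := by rw [← pow_add]
  have h9 : 0 < Nat.card F ^ 56 := by positivity
  have h10 : Nat.card F ^ 76 * Nat.card F ^ 56 ≤ 4 * Nat.card ↥H * Nat.card F ^ 56 := by
    rw [← h8]
    calc Nat.card F ^ 132 ≤ 4 * Nat.card ↥(chevE7.group F) := h7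
      _ ≤ 4 * (Nat.card ↥H * Nat.card F ^ 56) := Nat.mul_le_mul_left _ h6
      _ = _ := by ring
  have h11 := Nat.le_of_mul_le_mul_right h10 h9
  omega

end Cfsg.Agent.R2.T1.Mu2
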