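import Cfsg.Agent.R2.T1.Mu2.Fix
import Cfsg.Agent.R2.T1.Inf.Tor

/-!
# The quadratic moment map and elements of order 3 with 32 fixed weights (helper24)

* `Mu_map` : change of fields;
* `Mu_supp` : `Mu K y z = z(e_{-θ}) * Mu K y e_{-θ}` if `y` is supported on weights with inner product 1 with `θ`;
* `line` : the values of the moment map on an eigenspace of an element `x` of type 32;
* `line_F` : char 2, over a finite field.
-/

set_option autoImplicit false
set_option maxRecDepth 100000

namespace Cfsg.Agent.R2.T1.Mu2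

open Cfsg Cfsg.Lie Matrix Module
open Cfsg.Agent.R2.T1 Cfsg.Agent.R2.PX
open Cfsg.Agent.ChevalleyStructure.Elts Cfsg.Agent.ChevalleyStructure.RootVec
  Cfsg.Agent.ChevalleyStructure.RootVecTab
open Cfsg.Agent.H943.E7V.Block (D1 rho)
open Cfsg.Agent.H952.F4 (ev es)

universe u v

section map
variable {F : Type u} {K : Type v} [Field F] [Field K] (f : F →+* K)

theorem NM_map (r : ℕ) : (NM F r).map f = NM K r := by
  ext a b
  rw [Matrix.map_apply]
  show f ((nz r a b : ℤ) : F) = ((nz r a b : ℤ) : K)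
  rw [map_intCast]

theorem Hi_map (i : ℕ) : (Hi F i).map f = Hi K i := by
  ext a b
  rw [Matrix.map_apply, Hi, Hi, Matrix.diagonal_apply, Matrix.diagonal_apply]
  split_ifs
  · rw [map_intCast]
  · rw [map_zero]

theorem del_map (z : chevE7.Idx → F) : (del F z).map f = del K fun i => f (z i) := by
  ext a b
  rw [Matrix.map_apply, del_apply, del_apply, Matrix.add_apply, Matrix.add_apply, Matrix.sum_apply, Matrix.sum_apply,
    Matrix.sum_apply, Matrix.sum_apply, map_add, map_sum, map_sum]
  congr 1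
  · refine Finset.sum_congr rfl fun i _ => ?_
    rw [Matrix.smul_apply, Matrix.smul_apply, smul_eq_mul, smul_eq_mul, map_mul, ← Hi_map f, Matrix.map_apply]
  · refine Finset.sum_congr rfl fun i _ => ?_
    rw [Matrix.smul_apply, Matrix.smul_apply, smul_eq_mul, smul_eq_mul, map_mul, ← NM_map f, Matrix.map_apply]

theorem hq_map (N : Matrix D1 D1 F) (y : D1 → F) : f (hq N y) = hq (N.map f) fun i => f (y i) := by
  unfold hq
  rw [map_sum]
  refine Finset.sum_congr rfl fun a _ => ?_
  rw [map_sum]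
  refine Finset.sum_congr rfl fun b _ => ?_
  rw [JM_mul_apply, JM_mul_apply, Matrix.map_apply]
  split_ifs
  · rw [map_mul, map_mul, map_mul, map_intCast]
  · rw [map_zero]

/-- change of fields -/
theorem Mu_map (y : D1 → F) (z : chevE7.Idx → F) : Mu K (fun i => f (y i)) (fun j => f (z j)) = f (Mu F y z) := by
  rw [Mu_apply, Mu_apply, hq_map, del_map]

end map

section line
variable {K : Type u} [Field K]

theorem chW_op (l : Fin chevE7.rank → ℤ) (a : D1) : chW l (nn (op a)) = - chW l (nn a) := by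
  unfold chW
  rw [← Finset.sum_neg_distrib]
  exact Finset.sum_congr rfl fun i _ => by rw [cart_op i.2, neg_mul]

theorem chW_add (l : Fin chevE7.rank → ℤ) {r : ℕ} (hr : r < 126) {a b : D1} {c : ℤ} (h : mv r (nn b) = some (nn a, c)) :
    chW l (nn a) = chW l (nn b) + chR l r := by
  unfold chW chR
  rw [← Finset.sum_add_distrib]
  exact Finset.sum_congr rfl fun i _ => by rw [cart_add hr h i.2]; ring

theorem chR_lTh : ∀ s < 126, chR lTh s = -2 → s = 0 := by decide +kernel

/-- vectors supported on the weights with inner product 1 with the highest root -/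
theorem Mu_supp {y : D1 → K} (hy : ∀ a, y a ≠ 0 → chW lTh (nn a) = 1) (z : chevE7.Idx → K) :
    Mu K y z = z (Sum.inr ⟨0, by decide⟩) * Mu K y (er K 0 (by norm_num)) := by
  have hz : z = ∑ j, z j • (Pi.single j (1 : K) : chevE7.Idx → K) := by
    ext k
    simp [Finset.sum_apply, Pi.single_apply]
  have h1 : Mu K y z = ∑ j, z j * Mu K y (Pi.single j 1) := by
    conv_lhs => rw [hz]
    rw [map_sum]
    exact Finset.sum_congr rfl fun j _ => by rw [map_smul, smul_eq_mul]
  rw [h1, Finset.sum_eq_single (Sum.inr ⟨0, by decide⟩)]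
  · rfl
  · intro j _ hj
    have h2 : Mu K y (Pi.single j 1) = 0 := by
      rcases j with i | s
      · rw [Mu_apply, del_inl]
        refine hq_zero fun a b ha hb hab => ?_
        rw [JM_mul_apply, Hi, Matrix.diagonal_apply]
        by_cases h3 : op a = b
        · exfalso
          have h4 := hy a ha
          have h5 := hy b hb
          rw [← h3, chW_op, h4] at h5
          omega
        · rw [if_neg h3, mul_zero]
      · have hs : (s : ℕ) < 126 := s.2
        rw [Mu_apply, del_inr]
        refine hq_zero fun a b ha hb hab => ?_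
        by_contra hne
        obtain ⟨c, h3⟩ := JM_NM_ne hne
        have h4 := chW_add lTh hs h3
        rw [chW_op, hy a ha, hy b hb] at h4
        have h5 := chR_lTh s hs (by omega)
        apply hj
        congr 1
        exact Fin.ext h5
    rw [h2, mul_zero]
  · intro h; exact absurd (Finset.mem_univ _) h

theorem V_Phi_apply (a : Fin chevE7.rank → Kˣ) (y : D1 → K) (s : D1) : V K (Phi K a) y s = ((wt s a : Kˣ) : K) * y s := by
  rw [V_Phi, Matrix.toLin'_apply, Matrix.mulVec_diagonal]
  rfl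

/-- **eigenvectors of the elements of order 3 with 32 fixed weights** -/
theorem line {ζ : Kˣ} (hζ : IsPrimitiveRoot ζ 3) {x g : Gh K} (hg : Phi K (lam lTh ζ) = g * x * g⁻¹) {w : D1 → K}
    (hw : V K x w = (ζ : K) • w) (z : chevE7.Idx → K) :
    Mu K w z = L K g z (Sum.inr ⟨0, by decide⟩) * Mu K (V K g w) (er K 0 (by norm_num)) := by
  rw [← Mu_V g w z]
  refine Mu_supp (fun a ha => ?_) _
  have h1 : V K (Phi K (lam lTh ζ)) (V K g w) = (ζ : K) • V K g w := by
    rw [hg, V_mul, V_mul, V_inv, hw, map_smul]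
  have h2 := congrFun h1 a
  rw [V_Phi_apply, wt_lam, Pi.smul_apply, smul_eq_mul] at h2
  have h3 : ((ζ ^ chW lTh (nn a) : Kˣ) : K) = (ζ : K) := mul_right_cancel₀ ha h2
  have h4 : ζ ^ chW lTh (nn a) = ζ := Units.ext h3
  have h5 : ζ ^ (chW lTh (nn a) - 1) = 1 := by rw [_root_.zpow_sub_one, h4, mul_inv_cancel]
  rw [hζ.zpow_eq_one_iff_dvd] at h5
  rcases chW_lTh (nn a) (nn_lt a) (rt_nn a) with h6 | h6 | h6
  · rw [h6] at h5; norm_num at h5
  · exact h6
  · rw [h6] at h5; norm_num at h5

end line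

section two
variable {F : Type u} [Field F]

/-- **characteristic 2, over a finite field** -/
theorem line_F [Finite F] (h2 : (2 : F) = 0) {x : Gh F} (hx : x ^ 3 = 1) (h32 : ev (V F x) 1 = 32) :
    ∃ (ω : AlgebraicClosure F) (l : (chevE7.Idx → F) → AlgebraicClosure F), ω ^ 2 + ω + 1 = 0 ∧
      ∀ w : D1 → F, w + V F x w + V F x (V F x w) = 0 → ∃ q : AlgebraicClosure F, ∀ z,
        algebraMap F (AlgebraicClosure F) (Mu F w z) + ω * algebraMap F (AlgebraicClosure F) (Mu F (V F x w) z) +
          ω ^ 2 * algebraMap F (AlgebraicClosure F) (Mu F (V F x (V F x w)) z) = q * l z := by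
  have h3 : (3 : F) ≠ 0 := by
    intro h3
    have : (1 : F) = 0 := by linear_combination h3 - h2
    exact one_ne_zero this
  have h3' : ((3 : ℕ) : F) ≠ 0 := by exact_mod_cast h3
  obtain ⟨p, hpp, hp, hcop⟩ := exists_char h3'
  have hfr := frame p (by norm_num) hcop hx
  let K := AlgebraicClosure F
  let f : F →+* K := algebraMap F K
  have h2K : (2 : K) = 0 := by
    have h := congrArg f h2
    rwa [map_ofNat, map_zero] at h
  have h3K : ((3 : ℕ) : K) ≠ 0 := by
    have h := (map_ne_zero f).2 h3'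
    rwa [map_natCast] at h
  have : NeZero ((3 : ℕ) : K) := ⟨h3K⟩
  obtain ⟨ζ, hζ⟩ : ∃ ζ : K, IsPrimitiveRoot ζ 3 := HasEnoughRootsOfUnity.exists_primitiveRoot K 3
  obtain ⟨ζu, hζu⟩ : ∃ u : Kˣ, (u : K) = ζ := ⟨(hζ.isUnit (by norm_num)).unit, rfl⟩
  have hζ' : IsPrimitiveRoot ζu 3 := IsPrimitiveRoot.coe_units_iff.1 (by rw [hζu]; exact hζ)
  obtain ⟨g, hg⟩ := exists_lTh hζ' hfr (by rw [ev_V_one]; exact h32)
  have hω : ζ ^ 2 + ζ + 1 = 0 := by
    have h := hζ.geom_sum_eq_zero (by norm_num)
    simp only [Finset.sum_range_succ, Finset.sum_range_zero, pow_zero, pow_one] at h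
    linear_combination h
  have hω3 : ζ ^ 3 = 1 := hζ.pow_eq_one
  refine ⟨ζ, fun z => L K g (fun j => f (z j)) (Sum.inr ⟨0, by decide⟩), hω, fun w hw => ?_⟩
  -- the eigenvector
  set w0 : D1 → K := fun i => f (w i) with hw0
  set w1 : D1 → K := fun i => f (V F x w i) with hw1
  set w2 : D1 → K := fun i => f (V F x (V F x w) i) with hw2
  have e0 : V K (emb f x) w0 = w1 := V_emb f x w
  have e1 : V K (emb f x) w1 = w2 := V_emb f x _
  have hneg : ∀ a : K, -a = a := fun a => by linear_combination (-a) * h2K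
  have e2 : w2 = w0 + w1 := by
    funext i
    have h := congrArg f (congrFun hw i)
    rw [Pi.add_apply, Pi.add_apply, Pi.zero_apply, map_add, map_add, map_zero] at h
    rw [hw2, hw0, hw1, Pi.add_apply]
    dsimp only
    linear_combination h - (f (w i) + f (V F x w i)) * h2K
  set y : D1 → K := ζ ^ 2 • w0 + w1 with hy
  have hyx : V K (emb f x) y = ((ζu : Kˣ) : K) • y := by
    rw [hy, map_add, map_smul, e0, e1, e2, hζu]
    funext i
    simp only [Pi.add_apply, Pi.smul_apply, smul_eq_mul]
    linear_combination (w1 i) * hω - (w0 i) * hω3 - (w1 i * ζ) * h2K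
  refine ⟨Mu K (V K g y) (er K 0 (by norm_num)), fun z => ?_⟩
  have h4 := line hζ' hg hyx (fun j => f (z j))
  have h5 : Mu K y (fun j => f (z j)) = f (Mu F w z) + ζ * f (Mu F (V F x w) z) + ζ ^ 2 * f (Mu F (V F x (V F x w)) z) := by
    have m0 : Mu K w0 (fun j => f (z j)) = f (Mu F w z) := Mu_map f w z
    have m1 : Mu K w1 (fun j => f (z j)) = f (Mu F (V F x w) z) := Mu_map f _ z
    have m2 : Mu K w2 (fun j => f (z j)) = f (Mu F (V F x (V F x w)) z) := Mu_map f _ z
    have m3 := Mu_add w0 w1 (fun j => f (z j))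
    rw [← e2, m0, m1, m2] at m3
    rw [hy, Mu_add, Mu_smul, LinearMap.smul_apply, m0, m1, smul_eq_mul, Matrix.mulVec_smul, map_smul, smul_eq_mul]
    linear_combination (-(ζ ^ 2)) * m3 + (ζ * f (Mu F w z)) * hω3 - (f (Mu F w z) + f (Mu F (V F x w) z)) * hω +
      (ζ * f (Mu F w z) + f (Mu F (V F x w) z)) * h2K
  have h6 := h5.symm.trans h4
  refine h6.trans ?_
  exact mul_comm _ _

end two

end Cfsg.Agent.R2.T1.Mu2
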