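import Cfsg.Agent.R2.PX.Del

/-!
# The quadratic moment map of the 56-dimensional module of `E₇`, every characteristic: quadratic forms (helper24)

* `qf M y` : the quadratic form of the integral matrix `M`; `qf_zero_of` : `M + Mᵀ = 0 → qf M y = 0` (every commutative ring);
* `Up M` : the strictly upper triangular part; `Up_add` ;
* `equi_aux`.
-/

set_option autoImplicit false

namespace Cfsg.Agent.R2.T1.Mu2

open Cfsg Cfsg.Lie Matrix
open Cfsg.Agent.R2.T1
open Cfsg.Agent.H943.E7V.Block (D1 rho)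

universe u

section quad
variable {R : Type u} [CommRing R]

/-- the quadratic form of the integral matrix `M` -/
def qf (M : Matrix D1 D1 ℤ) (y : D1 → R) : R := ∑ a, ∑ b, ((M a b : ℤ) : R) * y a * y b

theorem qf_add (M N : Matrix D1 D1 ℤ) (y : D1 → R) : qf (M + N) y = qf M y + qf N y := by
  unfold qf
  simp only [Matrix.add_apply, Int.cast_add, add_mul, Finset.sum_add_distrib]

theorem qf_neg (M : Matrix D1 D1 ℤ) (y : D1 → R) : qf (-M) y = - qf M y := by
  unfold qf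
  simp only [Matrix.neg_apply, Int.cast_neg, neg_mul, Finset.sum_neg_distrib]

theorem qf_transpose (M : Matrix D1 D1 ℤ) (y : D1 → R) : qf Mᵀ y = qf M y := by
  unfold qf
  rw [Finset.sum_comm]
  refine Finset.sum_congr rfl fun a _ => Finset.sum_congr rfl fun b _ => ?_
  rw [Matrix.transpose_apply]; ring

/-- the strictly upper triangular part -/
def Up (M : Matrix D1 D1 ℤ) : Matrix D1 D1 ℤ := Matrix.of fun a b => if a < b then M a b else 0

theorem Up_apply (M : Matrix D1 D1 ℤ) (a b : D1) : Up M a b = if a < b then M a b else 0 := rfl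

/-- symmetric matrices with zero diagonal -/
theorem Up_add {M : Matrix D1 D1 ℤ} (hM : Mᵀ = M) (h0 : ∀ a, M a a = 0) : Up M + (Up M)ᵀ = M := by
  ext a b
  rw [Matrix.add_apply, Matrix.transpose_apply, Up_apply, Up_apply]
  rcases lt_trichotomy a b with h | h | h
  · rw [if_pos h, if_neg (lt_asymm h), add_zero]
  · subst h
    rw [if_neg (lt_irrefl a), h0, add_zero]
  · rw [if_neg (lt_asymm h), if_pos h, zero_add]
    exact congrFun (congrFun hM a) b

/-- alternating matrices -/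
theorem qf_zero_of {M : Matrix D1 D1 ℤ} (hM : M + Mᵀ = 0) (y : D1 → R) : qf M y = 0 := by
  have h0 : ∀ a, M a a = 0 := by
    intro a
    have h := congrFun (congrFun hM a) a
    rw [Matrix.add_apply, Matrix.transpose_apply, Matrix.zero_apply] at h
    omega
  have h1 : M = Up M + -(Up M)ᵀ := by
    ext a b
    rw [Matrix.add_apply, Matrix.neg_apply, Matrix.transpose_apply, Up_apply, Up_apply]
    have h := congrFun (congrFun hM a) b
    rw [Matrix.add_apply, Matrix.transpose_apply, Matrix.zero_apply] at h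
    rcases lt_trichotomy a b with h2 | h2 | h2
    · rw [if_pos h2, if_neg (lt_asymm h2)]; omega
    · subst h2
      rw [if_neg (lt_irrefl a), h0]; omega
    · rw [if_neg (lt_asymm h2), if_pos h2]; omega
  rw [h1, qf_add, qf_neg, qf_transpose, add_neg_cancel]

theorem qf_eq (M : Matrix D1 D1 ℤ) (y : D1 → R) : qf M y = y ⬝ᵥ (M.map (Int.cast : ℤ → R) *ᵥ y) := by
  unfold qf
  rw [dotProduct]
  refine Finset.sum_congr rfl fun a _ => ?_
  rw [Matrix.mulVec, dotProduct, Finset.mul_sum]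
  refine Finset.sum_congr rfl fun b _ => ?_
  rw [Matrix.map_apply]; ring

/-- the quadratic form at `y + t N y` -/
theorem qf_step (M N : Matrix D1 D1 ℤ) (t : R) (y : D1 → R) :
    qf M (y + t • (N.map (Int.cast : ℤ → R) *ᵥ y)) =
      qf M y + t * qf (Nᵀ * M + M * N) y + t ^ 2 * qf (Nᵀ * M * N) y := by
  have hm : ∀ A B : Matrix D1 D1 ℤ, (A * B).map (Int.cast : ℤ → R) = A.map (Int.cast : ℤ → R) * B.map (Int.cast : ℤ → R) :=
    fun A B => Matrix.map_mul (f := Int.castRingHom R)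
  have ht : (Nᵀ).map (Int.cast : ℤ → R) = (N.map (Int.cast : ℤ → R))ᵀ := rfl
  rw [qf_add]
  simp only [qf_eq, hm, ht]
  set n := N.map (Int.cast : ℤ → R) with hn
  set m := M.map (Int.cast : ℤ → R) with hmm
  have e1 : y ⬝ᵥ ((nᵀ * m) *ᵥ y) = (n *ᵥ y) ⬝ᵥ (m *ᵥ y) := by
    rw [← Matrix.mulVec_mulVec, Matrix.dotProduct_mulVec, Matrix.vecMul_transpose]
  have e2 : y ⬝ᵥ ((m * n) *ᵥ y) = y ⬝ᵥ (m *ᵥ (n *ᵥ y)) := by rw [← Matrix.mulVec_mulVec]
  have e3 : y ⬝ᵥ ((nᵀ * m * n) *ᵥ y) = (n *ᵥ y) ⬝ᵥ (m *ᵥ (n *ᵥ y)) := by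
    rw [← Matrix.mulVec_mulVec, ← Matrix.mulVec_mulVec, Matrix.dotProduct_mulVec, Matrix.vecMul_transpose]
  rw [e1, e2, e3, Matrix.mulVec_add, Matrix.mulVec_smul, add_dotProduct, dotProduct_add, dotProduct_add, smul_dotProduct,
    smul_dotProduct, dotProduct_smul, dotProduct_smul]
  simp only [smul_eq_mul]
  ring

end quad

section equi
variable {R : Type u} [CommRing R] {J N D0 D1' D2 : Matrix D1 D1 ℤ}

/-- the equivariance of the half-forms -/
theorem equi_aux (hN : Nᵀ * J = -(J * N)) (hNN : N * N = 0) (h1 : N * D0 = D0 * N + D1') (h2 : D1' * N + D2 = 0)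
    (h3 : D2 * N = 0) (s0 : Up (J * D0) + (Up (J * D0))ᵀ = J * D0) (s1 : Up (J * D1') + (Up (J * D1'))ᵀ = J * D1')
    (s2 : Up (J * D2) + (Up (J * D2))ᵀ = J * D2) (t : R) (y : D1 → R) :
    qf (Up (J * D0)) (y + t • (N.map (Int.cast : ℤ → R) *ᵥ y)) + t * qf (Up (J * D1')) (y + t • (N.map (Int.cast : ℤ → R) *ᵥ y)) +
      t ^ 2 * qf (Up (J * D2)) (y + t • (N.map (Int.cast : ℤ → R) *ᵥ y)) = qf (Up (J * D0)) y := by
  -- the symmetrization
  have key : ∀ D : Matrix D1 D1 ℤ, Up (J * D) + (Up (J * D))ᵀ = J * D →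
      (Nᵀ * Up (J * D) + Up (J * D) * N) + (Nᵀ * Up (J * D) + Up (J * D) * N)ᵀ = J * (D * N - N * D) ∧
      (Nᵀ * Up (J * D) * N) + (Nᵀ * Up (J * D) * N)ᵀ = - (J * (N * D * N)) := by
    intro D hD
    constructor
    · calc (Nᵀ * Up (J * D) + Up (J * D) * N) + (Nᵀ * Up (J * D) + Up (J * D) * N)ᵀ =
          Nᵀ * (Up (J * D) + (Up (J * D))ᵀ) + (Up (J * D) + (Up (J * D))ᵀ) * N := by
            rw [Matrix.transpose_add, Matrix.transpose_mul, Matrix.transpose_mul, Matrix.transpose_transpose]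
            noncomm_ring
        _ = _ := by
            rw [hD, ← Matrix.mul_assoc, hN]
            noncomm_ring
    · calc (Nᵀ * Up (J * D) * N) + (Nᵀ * Up (J * D) * N)ᵀ = Nᵀ * (Up (J * D) + (Up (J * D))ᵀ) * N := by
            rw [Matrix.transpose_mul, Matrix.transpose_mul, Matrix.transpose_transpose]
            noncomm_ring
        _ = _ := by
            rw [hD, ← Matrix.mul_assoc, hN]
            noncomm_ring
  obtain ⟨a0, b0⟩ := key D0 s0
  obtain ⟨a1, b1⟩ := key D1' s1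
  obtain ⟨a2, b2⟩ := key D2 s2
  have hD1 : D1' = N * D0 - D0 * N := by rw [h1]; abel
  have hD2 : D2 = -(D1' * N) := eq_neg_of_add_eq_zero_right h2
  have hNDN : N * D0 * N = D1' * N := by rw [h1, Matrix.add_mul, Matrix.mul_assoc, hNN, Matrix.mul_zero, zero_add]
  have hND1 : N * D1' = -(D1' * N) := by
    rw [hD1]
    have : N * (N * D0 - D0 * N) = (N * N) * D0 - N * D0 * N := by noncomm_ring
    rw [this, hNN, Matrix.zero_mul, zero_sub, Matrix.sub_mul, Matrix.mul_assoc D0, hNN, Matrix.mul_zero, sub_zero]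
  -- the coefficients
  have c1 : qf ((Nᵀ * Up (J * D0) + Up (J * D0) * N) + Up (J * D1')) y = 0 := by
    apply qf_zero_of
    have e : ((Nᵀ * Up (J * D0) + Up (J * D0) * N) + Up (J * D1')) +
        ((Nᵀ * Up (J * D0) + Up (J * D0) * N) + Up (J * D1'))ᵀ =
        ((Nᵀ * Up (J * D0) + Up (J * D0) * N) + (Nᵀ * Up (J * D0) + Up (J * D0) * N)ᵀ) +
        (Up (J * D1') + (Up (J * D1'))ᵀ) := by
      rw [Matrix.transpose_add (Nᵀ * Up (J * D0) + Up (J * D0) * N)]; abel
    rw [e, a0, s1, ← Matrix.mul_add, h1]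
    have : D0 * N - (D0 * N + D1') + D1' = 0 := by abel
    rw [this, Matrix.mul_zero]
  have c2 : qf ((Nᵀ * Up (J * D0) * N) + (Nᵀ * Up (J * D1') + Up (J * D1') * N) + Up (J * D2)) y = 0 := by
    apply qf_zero_of
    have e : ((Nᵀ * Up (J * D0) * N) + (Nᵀ * Up (J * D1') + Up (J * D1') * N) + Up (J * D2)) +
        ((Nᵀ * Up (J * D0) * N) + (Nᵀ * Up (J * D1') + Up (J * D1') * N) + Up (J * D2))ᵀ =
        ((Nᵀ * Up (J * D0) * N) + (Nᵀ * Up (J * D0) * N)ᵀ) +
        ((Nᵀ * Up (J * D1') + Up (J * D1') * N) + (Nᵀ * Up (J * D1') + Up (J * D1') * N)ᵀ) +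
        (Up (J * D2) + (Up (J * D2))ᵀ) := by
      rw [Matrix.transpose_add _ (Up (J * D2)), Matrix.transpose_add (Nᵀ * Up (J * D0) * N)]; abel
    rw [e, b0, a1, s2, ← Matrix.mul_neg, ← Matrix.mul_add, ← Matrix.mul_add, hNDN, hND1, hD2]
    have : -(D1' * N) + (D1' * N - -(D1' * N)) + -(D1' * N) = 0 := by abel
    rw [this, Matrix.mul_zero]
  have c3 : qf ((Nᵀ * Up (J * D1') * N) + (Nᵀ * Up (J * D2) + Up (J * D2) * N)) y = 0 := by
    apply qf_zero_of
    have e : ((Nᵀ * Up (J * D1') * N) + (Nᵀ * Up (J * D2) + Up (J * D2) * N)) +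
        ((Nᵀ * Up (J * D1') * N) + (Nᵀ * Up (J * D2) + Up (J * D2) * N))ᵀ =
        ((Nᵀ * Up (J * D1') * N) + (Nᵀ * Up (J * D1') * N)ᵀ) +
        ((Nᵀ * Up (J * D2) + Up (J * D2) * N) + (Nᵀ * Up (J * D2) + Up (J * D2) * N)ᵀ) := by
      rw [Matrix.transpose_add (Nᵀ * Up (J * D1') * N)]; abel
    rw [e, b1, a2, ← Matrix.mul_neg, ← Matrix.mul_add, h3, hD2]
    have : -(N * D1' * N) + (0 - N * -(D1' * N)) = 0 := by noncomm_ring
    rw [this, Matrix.mul_zero]
  have c4 : qf (Nᵀ * Up (J * D2) * N) y = 0 := by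
    apply qf_zero_of
    rw [b2, Matrix.mul_assoc N, h3, Matrix.mul_zero, Matrix.mul_zero, neg_zero]
  rw [qf_add] at c1 c3
  rw [qf_add, qf_add] at c2
  rw [qf_step, qf_step, qf_step]
  linear_combination t * c1 + t ^ 2 * c2 + t ^ 3 * c3 + t ^ 4 * c4

end equi

end Cfsg.Agent.R2.T1.Mu2
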