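import Cfsg.Agent.R2.T1.Mu2.Nf

/-!
# The quadratic moment map: totally singular subspaces are not stable under small maximal subgroups (helper24)

* `ts` : `H` maximal, `|H| < q ^ 27`, `W ≠ ⊥` stable under `H`, all elements of `W` singular: contradiction;
* `fix_zero` : a linear functional on the adjoint module which is invariant under `Gh F` vanishes;
* `func_zero` : an `H`-invariant functional `Mu F x` vanishes (`H` maximal, `4 |H| < q ^ 76`).
-/

set_option autoImplicit false
set_option maxRecDepth 100000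

namespace Cfsg.Agent.R2.T1.Mu2

open Cfsg Cfsg.Lie Matrix Module
open Cfsg.Agent.R2.T1 Cfsg.Agent.R2.PX
open Cfsg.Agent.ChevalleyStructure.Elts Cfsg.Agent.ChevalleyStructure.RootVec
  Cfsg.Agent.ChevalleyStructure.RootVecTab
open Cfsg.Agent.H943.E7V.Block (D1 rho)

universe u
variable {F : Type u} [Field F] {H : Subgroup ↥(chevE7.group F)}

/-- the neighbours of the lowest weight -/
def Nb : Type := {n : D1 // p2 n (op topv) = 1}

theorem chkNb : ((Comb.CT.filter fun e => Comb.vv e (Comb.ent 238) == -1).length) = 27 := by decide +kernel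

noncomputable instance : Fintype Nb := by
  unfold Nb
  exact Fintype.ofInjective (fun x => x.1) Subtype.val_injective

theorem nodup_CT : (Comb.CT.map fun e => e.1).Nodup := by decide +kernel

theorem card_Nb : 27 ≤ Fintype.card Nb := by
  classical
  set L := Comb.CT.filter fun e => Comb.vv e (Comb.ent 238) == -1 with hL
  have hex : ∀ e ∈ L, ∃ n : Nb, nn n.1 = e.1 := by
    intro e he
    obtain ⟨h1, h2⟩ := List.mem_filter.1 he
    have hs : rt chevE8 e.1 7 = 1 ∧ e.1 < 240 := by
      have : ∀ e ∈ Comb.CT, rt chevE8 e.1 7 = 1 ∧ e.1 < 240 := by decide +kernel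
      exact this e h1
    refine ⟨⟨⟨⟨e.1, hs.2⟩, hs.1⟩, ?_⟩, rfl⟩
    rw [p2_op', Comb.p2_eq_vv h1 (Comb.ent_nn topv).1 rfl (Comb.ent_nn topv).2]
    rw [beq_iff_eq] at h2
    have h3 : Comb.vv e (Comb.ent (nn topv)) = -1 := h2
    rw [h3]; rfl
  have hnd : (L.map fun e => e.1).Nodup := List.Sublist.nodup (List.Sublist.map _ List.filter_sublist) nodup_CT
  have hlen : (L.map fun e => e.1).length = 27 := by rw [List.length_map]; exact chkNb
  have hsub : ∀ k ∈ L.map (fun e => e.1), k ∈ (Finset.univ : Finset Nb).image fun n => nn n.1 := by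
    intro k hk
    obtain ⟨e, he, rfl⟩ := List.mem_map.1 hk
    obtain ⟨n, hn⟩ := hex e he
    exact Finset.mem_image.2 ⟨n, Finset.mem_univ _, hn⟩
  calc 27 = (L.map fun e => e.1).toFinset.card := by rw [List.toFinset_card_of_nodup hnd, hlen]
    _ ≤ ((Finset.univ : Finset Nb).image fun n => nn n.1).card := Finset.card_le_card fun k hk => hsub k (List.mem_toFinset.1 hk)
    _ ≤ (Finset.univ : Finset Nb).card := Finset.card_image_le
    _ = Fintype.card Nb := rfl

/-- polar form on a space of singular vectors -/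
theorem polar_zero {W : Submodule F (D1 → F)} (hs : ∀ x ∈ W, Sing x) {x y : D1 → F} (hx : x ∈ W) (hy : y ∈ W)
    (z : chevE7.Idx → F) : sf F y (del F z *ᵥ x) = 0 := by
  have h := Mu_add x y z
  have h1 : Mu F (x + y) = 0 := hs _ (add_mem hx hy)
  have h2 : Mu F x = 0 := hs _ hx
  have h3 : Mu F y = 0 := hs _ hy
  rw [h1, h2, h3, LinearMap.zero_apply, zero_add, zero_add] at h
  exact h.symm

/-- the unipotent group of the lowest weight vector, abstractly -/
def QQ (F : Type u) [Field F] : Subgroup (Gh F) where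
  carrier := {u | ∀ y, V F u y (op topv) = y (op topv) ∧ (y (op topv) = 0 → ∀ n, p2 n (op topv) = 1 → V F u y n = y n)}
  one_mem' := fun y => by rw [V_one]; exact ⟨rfl, fun _ _ _ => rfl⟩
  mul_mem' := by
    intro a b ha hb y
    rw [V_mul]
    refine ⟨by rw [(ha _).1, (hb _).1], fun h n hn => ?_⟩
    rw [(ha _).2 (by rw [(hb _).1, h]) n hn, (hb _).2 h n hn]
  inv_mem' := by
    intro a ha y
    have h1 := ha (V F a⁻¹ y)
    rw [V_inv'] at h1
    refine ⟨h1.1.symm, fun h n hn => ?_⟩
    rw [← h1.1] at *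
    exact (h1.2 h n hn).symm

theorem mem_QQ {u : Gh F} : u ∈ QQ F ↔ ∀ y, V F u y (op topv) = y (op topv) ∧
    (y (op topv) = 0 → ∀ n, p2 n (op topv) = 1 → V F u y n = y n) := Iff.rfl

theorem xs_QQ {r : ℕ} (hr : r < 126) {n : D1} {c : ℤ} (h : mv r (nn (op topv)) = some (nn n, c)) (t : F) : xs F r t ∈ QQ F := by
  rw [mem_QQ]
  intro y
  refine ⟨Tr.V_coord_ne hr (fun b d hb => ?_) t, fun h0 a ha => Tr.V_coord_ne hr (fun b d hb => ?_) t⟩
  · have h1 := Tr.grade hr h hb
    rw [p2_self] at h1
    rcases p2_cases b (op topv) with h2 | h2 | h2 | h2 <;> omega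
  · have h1 := Tr.grade hr h hb
    rw [ha] at h1
    rw [p2_eq_three.1 (by omega : p2 b (op topv) = 3)]
    exact h0

/-- **totally singular subspaces** -/
theorem ts [Finite F] (hM : IsCoatom H) (hcard : Nat.card ↥H < Nat.card F ^ 27) {W : Submodule F (D1 → F)}
    (hW : Stab (V F) H W) (h0 : W ≠ ⊥) (hs : ∀ x ∈ W, Sing x) : False := by
  classical
  obtain ⟨x, hx, hx0⟩ := Submodule.exists_mem_ne_zero_of_ne_bot h0
  obtain ⟨g0, hg0⟩ := Tr.exists_coord hx0 topv
  obtain ⟨g1, hg1, -⟩ := nf ((hs x hx).V g0) hg0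
  -- the conjugate of `W`
  set g : Gh F := g0⁻¹ * g1 with hg
  have hgx : x = (V F g0 x topv) • V F g (bs F topv) := by
    rw [hg, V_mul, ← map_smul, ← hg1, V_inv]
  have hmem : V F g (bs F topv) ∈ W := by
    have h2 : V F g (bs F topv) = (V F g0 x topv)⁻¹ • x := by
      rw [eq_inv_smul_iff₀ hg0]; exact hgx.symm
    rw [h2]
    exact W.smul_mem _ hx
  have hsupp : ∀ y, V F g y ∈ W → (∀ a, p2 a topv = -1 → y a = 0) ∧ y (op topv) = 0 := by
    intro y hy
    apply orth_bs
    intro z
    have hs' : ∀ w, V F g w ∈ W → Sing w := fun w hw => sing_V.1 (hs _ hw)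
    exact polar_zero (W := W.comap (V F g)) (fun w hw => hs' w hw) (x := bs F topv) (y := y) hmem hy z
  have hWtop : W ≠ ⊤ := by
    intro h
    have h1 := (hsupp (bs F (op topv)) (by rw [h]; trivial)).2
    rw [bs_same] at h1
    exact one_ne_zero h1
  -- the root groups
  have hroot : ∀ r < 126, ∀ (n : D1) (c : ℤ), mv r (nn (op topv)) = some (nn n, c) → ∀ t : F,
      ad F (g * xs F r t * g⁻¹) ∈ H := by
    intro r hr n c hmv t
    refine blue hM hW h0 hWtop fun w hw => ?_
    rw [V_mul, V_mul]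
    have hw' : V F g (V F g⁻¹ w) ∈ W := by rw [V_inv']; exact hw
    obtain ⟨s1, s2⟩ := hsupp _ hw'
    set y := V F g⁻¹ w with hy
    rw [V_xs hr, map_add, map_smul]
    refine W.add_mem hw' (W.smul_mem _ ?_)
    -- the image is a multiple of the highest weight vector
    have h1 : NM F r *ᵥ y = ((NM F r *ᵥ y) topv) • bs F topv := by
      funext a
      by_cases ha : a = topv
      · rw [ha, Pi.smul_apply, bs_same, smul_eq_mul, mul_one]
      · rw [Pi.smul_apply, bs_ne ha, smul_zero]
        by_contra hne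
        obtain ⟨b, d, h2, h3⟩ := NM_mulVec_ne hne
        have h4 := Tr.grade hr hmv h2
        rw [p2_op', p2_op'] at h4
        rcases p2_cases b topv with h5 | h5 | h5 | h5
        · rcases p2_cases a topv with h6 | h6 | h6 | h6 <;> omega
        · exact ha (p2_eq_three.1 (by omega))
        · exact h3 (s1 b h5)
        · rw [p2_comm] at h5
          rw [p2_eq_neg_three.1 h5] at h3
          exact h3 s2
    rw [h1, map_smul]
    exact W.smul_mem _ hmem
  -- counting
  let P : Subgroup (Gh F) := QQ F ⊓ H.comap ((ad F).comp (MulAut.conj g).toMonoidHom)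
  have hPm : ∀ n : D1, p2 n (op topv) = 1 → ∀ r < 126, ∀ c, mv r (nn (op topv)) = some (nn n, c) → ∀ t : F, xs F r t ∈ P := by
    intro n _ r hr c hmv t
    exact ⟨xs_QQ hr hmv t, hroot r hr n c hmv t⟩
  let vec : (Nb → F) → (D1 → F) := fun c a => if h : p2 a (op topv) = 1 then c ⟨a, h⟩ else if a = op topv then 1 else 0
  have hv1 : ∀ c, vec c (op topv) = 1 := by
    intro c
    have : p2 (op topv) (op topv) ≠ 1 := by rw [p2_self]; omega
    simp only [vec]
    rw [dif_neg this]
    simp
  have hv2 : ∀ c (n : Nb), vec c n.1 = c n := by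
    intro c n
    simp only [vec]
    rw [dif_pos n.2]
    rfl
  have hex : ∀ c : Nb → F, ∃ u ∈ P, V F u (vec c) (op topv) = 1 ∧ ∀ n : Nb, V F u (vec c) n.1 = 0 := by
    intro c
    obtain ⟨u, hu, h1, h2, -⟩ := Tr.clear P (op topv) (x := vec c) (by rw [hv1]; exact one_ne_zero)
      (Finset.univ.filter fun n => p2 n (op topv) = 1) (fun n hn => ⟨(Finset.mem_filter.1 hn).2, hPm n (Finset.mem_filter.1 hn).2⟩)
    exact ⟨u, hu, by rw [h1, hv1], fun n => h2 n.1 (Finset.mem_filter.2 ⟨Finset.mem_univ _, n.2⟩)⟩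
  choose u hu hu1 hu2 using hex
  have huH : ∀ c, ad F (g * u c * g⁻¹) ∈ H := fun c => (hu c).2
  have hinj : Function.Injective fun c : Nb → F => (⟨ad F (g * u c * g⁻¹), huH c⟩ : ↥H) := by
    intro c c' hcc
    have h1 : ad F (g * u c * g⁻¹) = ad F (g * u c' * g⁻¹) := congrArg Subtype.val hcc
    have he : ∀ v : Gh F, ad F v = (ad F g)⁻¹ * ad F (g * v * g⁻¹) * ad F g := by
      intro v
      rw [← map_inv, ← map_mul, ← map_mul]
      congr 1
      group
    have h2 : ad F (u c) = ad F (u c') := by rw [he (u c), h1, ← he]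
    have h3 : ∀ y, V F (u c) y = V F (u c') y := by
      rcases ad_eq_iff.1 h2 with h3 | h3
      · intro y; rw [h3]
      · -- characteristic 2
        have e1 := (mem_QQ.1 (hu c).1 (bs F (op topv))).1
        have e2 := (mem_QQ.1 (hu c').1 (bs F (op topv))).1
        rw [h3, LinearMap.neg_apply, Pi.neg_apply, e2, bs_same] at e1
        have e3 : (2 : F) = 0 := by linear_combination -e1
        intro y
        rw [h3, LinearMap.neg_apply]
        funext a
        rw [Pi.neg_apply]
        linear_combination (-(V F (u c') y a)) * e3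
    funext n
    have h4 : V F (u c) (vec c - vec c') n.1 = 0 := by
      rw [map_sub, Pi.sub_apply, hu2, h3, hu2, sub_zero]
    rw [(mem_QQ.1 (hu c).1 (vec c - vec c')).2 (by rw [Pi.sub_apply, hv1, hv1, sub_self]) n.1 n.2, Pi.sub_apply, hv2, hv2] at h4
    exact sub_eq_zero.1 h4
  have h1 := Nat.card_le_card_of_injective _ hinj
  have h2 : Nat.card F ^ 27 ≤ Nat.card (Nb → F) := by
    rw [Nat.card_fun, Nat.card_eq_fintype_card (α := Nb)]
    exact Nat.pow_le_pow_right (by have := two_le_card (F := F); omega) card_Nb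
  omega

end Cfsg.Agent.R2.T1.Mu2
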